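import Cfsg.Agent.H35.KB.Corr

/-!
# S1920: sign changes with respect to an orthogonal basis (helper292)

`F` a finite field of odd characteristic, `v` an orthogonal basis of nonsingular vectors.

* `sg v J` : the sign change on the vectors `v j`, `j ∈ J`; `sg_mul`, `det_sg`, `spin_sg`;
* `sg_mem_E_iff` : `sg v J ∈ E Q ↔ Even #J ∧ IsSquare (∏ j ∈ J, Q (v j))`; `sg_mem_E_iff'` : the version for `polar Q`.
* `Tg v` : the group of all sign changes, of order `2 ^ n` (`card_Tg`);
* `Sg Q v = {s ∈ E Q : ∀ i, s (v i) = v i ∨ s (v i) = - v i}` : `mem_Sg_iff`, `Sg_sq`, `Sg_comm`, `Sg_two` (a `2`-group),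
  `Sg_card : 2 ^ (n - 2) ∣ Nat.card (Sg Q v)`.
-/

set_option autoImplicit false
set_option linter.unusedSectionVars false

namespace Cfsg.Agent.H292.Co3

open QuadraticMap Module Cfsg.Agent.LieClassical.OrthCore Cfsg.Agent.LieClassical.OrthTrans
open Cfsg.Agent.H160.QSpin
open Cfsg.Agent.LieClassical.OrthFinite (good_of_finite)

variable {F V : Type*} [Field F] [AddCommGroup V] [Module F V] {Q : QuadraticForm F V} {n : ℕ}

/-- the sign change as an endomorphism -/
noncomputable def sgE (v : Basis (Fin n) F V) (J : Finset (Fin n)) : Module.End F V :=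
  v.constr F (fun j => if j ∈ J then -v j else v j)

theorem sgE_basis (v : Basis (Fin n) F V) (J : Finset (Fin n)) (j : Fin n) :
    sgE v J (v j) = if j ∈ J then -v j else v j := v.constr_basis F _ j

/-- the sign change -/
noncomputable def sg (v : Basis (Fin n) F V) (J : Finset (Fin n)) : V ≃ₗ[F] V :=
  LinearEquiv.ofInvolutive (sgE v J) (by
    have h : sgE v J ∘ₗ sgE v J = LinearMap.id := by
      apply v.ext
      intro j
      rw [LinearMap.comp_apply, sgE_basis, LinearMap.id_apply]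
      by_cases hj : j ∈ J
      · rw [if_pos hj, map_neg, sgE_basis, if_pos hj, neg_neg]
      · rw [if_neg hj, sgE_basis, if_neg hj]
    exact fun x => LinearMap.congr_fun h x)

theorem coe_sg (v : Basis (Fin n) F V) (J : Finset (Fin n)) : (sg v J : Module.End F V) = sgE v J := rfl

theorem sg_basis (v : Basis (Fin n) F V) (J : Finset (Fin n)) (j : Fin n) :
    sg v J (v j) = if j ∈ J then -v j else v j := sgE_basis v J j

theorem sg_empty (v : Basis (Fin n) F V) : sg v ∅ = 1 := by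
  apply LinearEquiv.toLinearMap_injective
  apply v.ext
  intro j
  rw [LinearEquiv.coe_coe, sg_basis, if_neg (Finset.notMem_empty j)]
  rfl

theorem sg_mul (v : Basis (Fin n) F V) (J K : Finset (Fin n)) : sg v J * sg v K = sg v (symmDiff J K) := by
  apply LinearEquiv.toLinearMap_injective
  apply v.ext
  intro j
  rw [LinearEquiv.coe_coe, LinearEquiv.coe_coe, LinearEquiv.mul_apply, sg_basis, sg_basis]
  by_cases h1 : j ∈ J <;> by_cases h2 : j ∈ K <;>
    simp [h1, h2, Finset.mem_symmDiff, sg_basis]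

theorem sg_mul_self (v : Basis (Fin n) F V) (J : Finset (Fin n)) : sg v J * sg v J = 1 := by
  rw [sg_mul, symmDiff_self]
  exact sg_empty v

theorem sg_univ (v : Basis (Fin n) F V) (x : V) : sg v Finset.univ x = -x := by
  have h : (sg v Finset.univ : Module.End F V) = -1 := by
    apply v.ext
    intro j
    rw [LinearEquiv.coe_coe, sg_basis, if_pos (Finset.mem_univ j)]
    rfl
  exact LinearMap.congr_fun h x

theorem sg_injective [Nontrivial V] (h2 : (2 : F) ≠ 0) (v : Basis (Fin n) F V) : Function.Injective (sg v) := by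
  intro J K h
  ext j
  have h1 : sg v J (v j) = sg v K (v j) := by rw [h]
  rw [sg_basis, sg_basis] at h1
  have h3 : -v j ≠ v j := by
    intro h4
    have h5 : (2 : F) • v j = 0 := by
      rw [two_smul]
      nth_rewrite 1 [← h4]
      exact neg_add_cancel _
    rcases smul_eq_zero.1 h5 with h6 | h6
    · exact h2 h6
    · exact v.ne_zero j h6
  by_cases hJ : j ∈ J <;> by_cases hK : j ∈ K
  · exact ⟨fun _ => hK, fun _ => hJ⟩
  · rw [if_pos hJ, if_neg hK] at h1
    exact absurd h1 h3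
  · rw [if_neg hJ, if_pos hK] at h1
    exact absurd h1.symm h3
  · exact ⟨fun h => absurd h hJ, fun h => absurd h hK⟩

section orth

variable {v : Basis (Fin n) F V}

/-- adding a reflection -/
theorem sg_insert (ho : ∀ i j, i ≠ j → polar Q (v i) (v j) = 0) {j : Fin n} (hj : Q (v j) ≠ 0) {J : Finset (Fin n)}
    (hJ : j ∉ J) : sg v (insert j J) = refl Q (v j) hj * sg v J := by
  apply LinearEquiv.toLinearMap_injective
  apply v.ext
  intro i
  rw [LinearEquiv.coe_coe, LinearEquiv.coe_coe, LinearEquiv.mul_apply, sg_basis, sg_basis]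
  by_cases hi : i = j
  · subst hi
    rw [if_pos (Finset.mem_insert_self _ _), if_neg hJ, refl_apply, polar_self]
    have e : (Q (v i))⁻¹ * (2 • Q (v i)) = 2 := by
      rw [nsmul_eq_mul, mul_left_comm, inv_mul_cancel₀ hj, mul_one]
      norm_num
    rw [e, two_smul]
    abel
  · have h1 : i ∈ insert j J ↔ i ∈ J := by
      rw [Finset.mem_insert]
      exact ⟨fun h => h.resolve_left hi, Or.inr⟩
    have h2 : refl Q (v j) hj (v i) = v i := by
      rw [refl_apply, ho j i (Ne.symm hi), mul_zero, zero_smul, sub_zero]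
    by_cases h3 : i ∈ J
    · rw [if_pos (h1.2 h3), if_pos h3, map_neg, h2]
    · rw [if_neg (fun h => h3 (h1.1 h)), if_neg h3, h2]

theorem sg_mem_O (ho : ∀ i j, i ≠ j → polar Q (v i) (v j) = 0) (hv : ∀ j, Q (v j) ≠ 0) (J : Finset (Fin n)) :
    sg v J ∈ O Q := by
  induction J using Finset.induction_on with
  | empty => rw [sg_empty]; exact (O Q).one_mem
  | insert j J hJ ih =>
    rw [sg_insert ho (hv j) hJ]
    exact (O Q).mul_mem (refl_mem_O _) ih

theorem det_sg (ho : ∀ i j, i ≠ j → polar Q (v i) (v j) = 0) (hv : ∀ j, Q (v j) ≠ 0) (J : Finset (Fin n)) :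
    LinearEquiv.det (sg v J) = (-1) ^ J.card := by
  have hfd : FiniteDimensional F V := Module.Finite.of_basis v
  induction J using Finset.induction_on with
  | empty => rw [sg_empty, map_one, Finset.card_empty, pow_zero]
  | insert j J hJ ih =>
    rw [sg_insert ho (hv j) hJ, map_mul, ih, det_refl, Finset.card_insert_of_notMem hJ, pow_succ']

open scoped Classical in
theorem spin_sg [Finite F] [Finite V] (h2 : (2 : F) ≠ 0) (ho : ∀ i j, i ≠ j → polar Q (v i) (v j) = 0)
    (hv : ∀ j, Q (v j) ≠ 0) (J : Finset (Fin n)) :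
    spin Q ⟨sg v J, sg_mem_O ho hv J⟩ = ∏ j ∈ J, if IsSquare (Q (v j)) then -1 else 1 := by
  induction J using Finset.induction_on with
  | empty =>
    have h : (⟨sg v ∅, sg_mem_O ho hv ∅⟩ : O Q) = 1 := Subtype.ext (sg_empty v)
    rw [h, map_one, Finset.prod_empty]
  | insert j J hJ ih =>
    have h : (⟨sg v (insert j J), sg_mem_O ho hv _⟩ : O Q) =
        ⟨refl Q (v j) (hv j), refl_mem_O _⟩ * ⟨sg v J, sg_mem_O ho hv J⟩ := Subtype.ext (sg_insert ho (hv j) hJ)
    rw [h, map_mul, ih, Finset.prod_insert hJ, spin_refl h2]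

/-- elements of `E Q` have determinant one and spinor sign one -/
theorem of_mem_E (hG : Good Q) {A : Type*} [CommGroup A] (φ : O Q →* A) {g : V ≃ₗ[F] V} (hg : g ∈ E Q) :
    φ ⟨g, E_le_O hg⟩ = 1 := by
  rw [← hG.commutator_eq_E] at hg
  have h1 : (⟨g, E_le_O (by rw [← hG.commutator_eq_E]; exact hg)⟩ : O Q) ∈ commutator ↥(O Q) := by
    have h2 : g ∈ (commutator ↥(O Q)).map (O Q).subtype := by
      rw [commutator_def, Subgroup.map_commutator, ← MonoidHom.range_eq_map, Subgroup.range_subtype]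
      exact hg
    obtain ⟨x, hx, hxg⟩ := h2
    have h3 : x = ⟨g, E_le_O (by rw [← hG.commutator_eq_E]; exact hg)⟩ := Subtype.ext hxg
    rwa [← h3]
  exact (Abelianization.commutator_subset_ker φ) h1

/-- the condition on the spinor norm -/
theorem prod_sign [Finite F] (a : Fin n → F) (ha : ∀ j, a j ≠ 0) (J : Finset (Fin n)) (hJ : Even J.card)
    [∀ j, Decidable (IsSquare (a j))] :
    (∏ j ∈ J, if IsSquare (a j) then (-1 : ℤˣ) else 1) = 1 ↔ IsSquare (∏ j ∈ J, a j) := by
  classical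
  have := Fintype.ofFinite F
  have key : ∀ J : Finset (Fin n), ((∏ j ∈ J, if IsSquare (a j) then (-1 : ℤˣ) else 1 : ℤˣ) : ℤ) =
      (-1) ^ J.card * quadraticChar F (∏ j ∈ J, a j) := by
    intro J
    induction J using Finset.induction_on with
    | empty => simp
    | insert j J hj ih =>
      rw [Finset.prod_insert hj, Units.val_mul, ih, Finset.card_insert_of_notMem hj, Finset.prod_insert hj, map_mul,
        pow_succ]
      by_cases h : IsSquare (a j)
      · rw [if_pos h, (quadraticChar_one_iff_isSquare (ha j)).2 h]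
        push_cast
        ring
      · rw [if_neg h, quadraticChar_neg_one_iff_not_isSquare.2 h]
        push_cast
        ring
  rw [← Units.val_inj, key, hJ.neg_one_pow, one_mul, Units.val_one,
    quadraticChar_one_iff_isSquare (Finset.prod_ne_zero_iff.2 fun j _ => ha j)]

/-- **Sign changes in `E Q`.** -/
theorem sg_mem_E_iff [Finite F] [Finite V] (hG : Good Q) (h2 : (2 : F) ≠ 0)
    (ho : ∀ i j, i ≠ j → polar Q (v i) (v j) = 0) (hv : ∀ j, Q (v j) ≠ 0) (J : Finset (Fin n)) :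
    sg v J ∈ E Q ↔ Even J.card ∧ IsSquare (∏ j ∈ J, Q (v j)) := by
  have := Fintype.ofFinite F
  have hfd : FiniteDimensional F V := Module.Finite.of_basis v
  have h11 : (-1 : Fˣ) ≠ 1 := by
    intro h
    have h3 : (-1 : F) = 1 := congrArg Units.val h
    exact h2 (by linear_combination -h3)
  have hdet : LinearEquiv.det (sg v J) = 1 ↔ Even J.card := by
    rw [det_sg ho hv]
    constructor
    · intro h
      by_contra hne
      rw [Nat.not_even_iff_odd] at hne
      rw [hne.neg_one_pow] at h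
      exact h11 h
    · intro h
      exact h.neg_one_pow
  constructor
  · intro h
    have h3 : Even J.card := by
      rw [← hdet]
      exact of_mem_E hG (LinearEquiv.det.comp (O Q).subtype) h
    refine ⟨h3, ?_⟩
    have h4 : spin Q ⟨sg v J, sg_mem_O ho hv J⟩ = 1 := of_mem_E hG (spin Q) h
    rw [spin_sg h2 ho hv] at h4
    exact (@prod_sign F _ n _ _ hv J h3 (fun _ => Classical.propDecidable _)).1 h4
  · rintro ⟨h3, h4⟩
    refine Cfsg.Agent.H35.KB.mem_E_of hG h2 (sg_mem_O ho hv J) (hdet.2 h3) ?_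
    rw [spin_sg h2 ho hv]
    exact (@prod_sign F _ n _ _ hv J h3 (fun _ => Classical.propDecidable _)).2 h4

/-- the norms `polar Q (v j) (v j) = 2 Q (v j)` -/
theorem isSquare_polar (h2 : (2 : F) ≠ 0) {J : Finset (Fin n)} (hJ : Even J.card) (v : Fin n → V) :
    IsSquare (∏ j ∈ J, polar Q (v j) (v j)) ↔ IsSquare (∏ j ∈ J, Q (v j)) := by
  obtain ⟨k, hk⟩ := hJ
  have e : ∏ j ∈ J, polar Q (v j) (v j) = (2 : F) ^ (k + k) * ∏ j ∈ J, Q (v j) := by
    rw [← hk, ← Finset.prod_const, ← Finset.prod_mul_distrib]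
    exact Finset.prod_congr rfl fun j _ => by rw [polar_self, nsmul_eq_mul]; norm_num
  rw [e]
  constructor
  · rintro ⟨r, hr⟩
    refine ⟨r / 2 ^ k, ?_⟩
    rw [div_mul_div_comm, ← hr, ← pow_add, mul_div_cancel_left₀]
    exact pow_ne_zero _ h2
  · rintro ⟨r, hr⟩
    refine ⟨2 ^ k * r, ?_⟩
    rw [hr, pow_add]
    ring

theorem sg_mem_E_iff' [Finite F] [Finite V] (hG : Good Q) (h2 : (2 : F) ≠ 0)
    (ho : ∀ i j, i ≠ j → polar Q (v i) (v j) = 0) (hv : ∀ j, Q (v j) ≠ 0) (J : Finset (Fin n)) :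
    sg v J ∈ E Q ↔ Even J.card ∧ IsSquare (∏ j ∈ J, polar Q (v j) (v j)) := by
  rw [sg_mem_E_iff hG h2 ho hv]
  constructor
  · rintro ⟨h3, h4⟩
    exact ⟨h3, (isSquare_polar h2 h3 _).2 h4⟩
  · rintro ⟨h3, h4⟩
    exact ⟨h3, (isSquare_polar h2 h3 _).1 h4⟩

end orth

section count

/-- the group of all sign changes -/
noncomputable def Tg (v : Basis (Fin n) F V) : Subgroup (V ≃ₗ[F] V) where
  carrier := Set.range (sg v)
  mul_mem' := by
    rintro _ _ ⟨J, rfl⟩ ⟨K, rfl⟩
    exact ⟨symmDiff J K, (sg_mul v J K).symm⟩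
  one_mem' := ⟨∅, sg_empty v⟩
  inv_mem' := by
    rintro _ ⟨J, rfl⟩
    exact ⟨J, (inv_eq_of_mul_eq_one_right (sg_mul_self v J)).symm⟩

theorem mem_Tg_iff (v : Basis (Fin n) F V) {s : V ≃ₗ[F] V} : s ∈ Tg v ↔ ∀ i, s (v i) = v i ∨ s (v i) = -v i := by
  classical
  constructor
  · rintro ⟨J, rfl⟩ i
    rw [sg_basis]
    by_cases h : i ∈ J
    · rw [if_pos h]; exact Or.inr rfl
    · rw [if_neg h]; exact Or.inl rfl
  · intro h
    refine ⟨Finset.univ.filter fun i => s (v i) ≠ v i, ?_⟩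
    apply LinearEquiv.toLinearMap_injective
    apply v.ext
    intro i
    rw [LinearEquiv.coe_coe, LinearEquiv.coe_coe, sg_basis]
    by_cases hi : s (v i) = v i
    · rw [if_neg (by simp [hi]), hi]
    · rw [if_pos (by simp [hi])]
      exact ((h i).resolve_left hi).symm

theorem card_Tg [Nontrivial V] (h2 : (2 : F) ≠ 0) (v : Basis (Fin n) F V) : Nat.card (Tg v) = 2 ^ n := by
  have h : Nat.card (Tg v) = Nat.card (Finset (Fin n)) :=
    Nat.card_congr (Equiv.ofInjective (sg v) (sg_injective h2 v)).symm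
  rw [h, Nat.card_eq_fintype_card, Fintype.card_finset, Fintype.card_fin]

/-- the sign changes in `E Q` -/
noncomputable def Sg (Q : QuadraticForm F V) (v : Basis (Fin n) F V) : Subgroup (V ≃ₗ[F] V) := E Q ⊓ Tg v

theorem mem_Sg_iff {Q : QuadraticForm F V} {v : Basis (Fin n) F V} {s : V ≃ₗ[F] V} :
    s ∈ Sg Q v ↔ s ∈ E Q ∧ ∀ i, s (v i) = v i ∨ s (v i) = -v i := by
  rw [Sg, Subgroup.mem_inf, mem_Tg_iff]

theorem Tg_sq {v : Basis (Fin n) F V} {s : V ≃ₗ[F] V} (hs : s ∈ Tg v) : s * s = 1 := by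
  obtain ⟨J, rfl⟩ := hs
  exact sg_mul_self v J

theorem Tg_comm {v : Basis (Fin n) F V} {s t : V ≃ₗ[F] V} (hs : s ∈ Tg v) (ht : t ∈ Tg v) : s * t = t * s := by
  obtain ⟨J, rfl⟩ := hs
  obtain ⟨K, rfl⟩ := ht
  rw [sg_mul, sg_mul, symmDiff_comm]

theorem Sg_sq {Q : QuadraticForm F V} {v : Basis (Fin n) F V} {s : V ≃ₗ[F] V} (hs : s ∈ Sg Q v) : s * s = 1 :=
  Tg_sq hs.2

theorem Sg_comm {Q : QuadraticForm F V} {v : Basis (Fin n) F V} {s t : V ≃ₗ[F] V} (hs : s ∈ Sg Q v) (ht : t ∈ Sg Q v) :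
    s * t = t * s := Tg_comm hs.2 ht.2

theorem Sg_two {Q : QuadraticForm F V} {v : Basis (Fin n) F V} : IsPGroup 2 (Sg Q v) := by
  rintro ⟨s, hs⟩
  exact ⟨1, Subtype.ext (by rw [pow_one, pow_two]; exact Sg_sq hs)⟩

/-- **The order of the group of the sign changes in `E Q`.** -/
theorem Sg_card [Finite F] [Finite V] (hG : Good Q) (h2 : (2 : F) ≠ 0) {v : Basis (Fin n) F V}
    (ho : ∀ i j, i ≠ j → polar Q (v i) (v j) = 0) (hv : ∀ j, Q (v j) ≠ 0) :
    2 ^ (n - 2) ∣ Nat.card (Sg Q v) := by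
  classical
  have hfd : FiniteDimensional F V := Module.Finite.of_basis v
  have hd : n = finrank F V := by rw [finrank_eq_card_basis v, Fintype.card_fin]
  have hn : 5 ≤ n := hd ▸ hG.dim
  have : Nontrivial V := Module.nontrivial_of_finrank_pos (R := F) (by omega)
  have hT : Tg v ≤ O Q := by
    rintro _ ⟨J, rfl⟩
    exact sg_mem_O ho hv J
  let ψ : Tg v →* Fˣ × ℤˣ :=
    ((LinearEquiv.det.comp (O Q).subtype).prod (spin Q)).comp (Subgroup.inclusion hT)
  have h1 : Nat.card ψ.ker * Nat.card ψ.range = 2 ^ n := by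
    rw [← card_Tg h2 v, ← Subgroup.index_ker, Subgroup.card_mul_index]
  have h3 : Nat.card ψ.range ≤ 4 := by
    have h4 : (ψ.range : Set (Fˣ × ℤˣ)) ⊆ (({1, -1} : Finset Fˣ) ×ˢ (Finset.univ : Finset ℤˣ) : Finset (Fˣ × ℤˣ)) := by
      rintro _ ⟨⟨_, J, rfl⟩, rfl⟩
      rw [Finset.mem_coe, Finset.mem_product]
      refine ⟨?_, Finset.mem_univ _⟩
      have h5 : (ψ ⟨sg v J, J, rfl⟩).1 = (-1) ^ J.card := det_sg ho hv J
      rw [h5]
      rcases neg_one_pow_eq_or Fˣ J.card with h6 | h6 <;> rw [h6] <;> simp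
    have h5 : Nat.card ψ.range ≤ (({1, -1} : Finset Fˣ) ×ˢ (Finset.univ : Finset ℤˣ)).card := by
      have h9 := Set.ncard_le_ncard h4 (Finset.finite_toSet _)
      rwa [Set.ncard_coe_finset, ← Nat.card_coe_set_eq] at h9
    refine h5.trans ?_
    rw [Finset.card_product]
    have h6 : ({1, -1} : Finset Fˣ).card ≤ 2 := Finset.card_le_two
    have h7 : (Finset.univ : Finset ℤˣ).card = 2 := by decide
    rw [h7]
    omega
  have h4 : Nat.card ψ.ker ∣ Nat.card (Sg Q v) := by
    have h5 : ψ.ker.map (Tg v).subtype ≤ Sg Q v := by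
      rintro _ ⟨⟨s, hs⟩, hk, rfl⟩
      have hk' : ψ ⟨s, hs⟩ = 1 := hk
      exact ⟨Cfsg.Agent.H35.KB.mem_E_of hG h2 (hT hs) (congrArg Prod.fst hk') (congrArg Prod.snd hk'), hs⟩
    rw [Nat.card_congr (ψ.ker.equivMapOfInjective (Tg v).subtype (Tg v).subtype_injective).toEquiv]
    exact Subgroup.card_dvd_of_le h5
  obtain ⟨j, hj, hj2⟩ := (Nat.dvd_prime_pow Nat.prime_two).1 (Dvd.intro_left _ h1)
  have hj3 : j ≤ 2 := by
    by_contra hc
    have h6 : 2 ^ 3 ≤ 2 ^ j := Nat.pow_le_pow_right (by norm_num) (by omega)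
    omega
  refine Dvd.dvd.trans ?_ h4
  rw [hj2] at h1
  have h7 : Nat.card ψ.ker = 2 ^ (n - j) := by
    have h8 : 2 ^ n = 2 ^ (n - j) * 2 ^ j := by rw [← pow_add, Nat.sub_add_cancel hj]
    rw [h8] at h1
    exact Nat.eq_of_mul_eq_mul_right (by positivity) h1
  rw [h7]
  exact pow_dvd_pow 2 (by omega)

theorem Sg_card_le [Finite F] [Finite V] (hG : Good Q) (h2 : (2 : F) ≠ 0) {v : Basis (Fin n) F V}
    (ho : ∀ i j, i ≠ j → polar Q (v i) (v j) = 0) (hv : ∀ j, Q (v j) ≠ 0) :
    2 ^ (n - 2) ≤ Nat.card (Sg Q v) := by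
  have : Finite (V ≃ₗ[F] V) := DFunLike.finite _
  exact Nat.le_of_dvd Nat.card_pos (Sg_card hG h2 ho hv)

end count

end Cfsg.Agent.H292.Co3
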